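import Mathlib
import Cfsg.Agent.H6.Orb

/-! Orders of abelian subgroups of symmetric and alternating groups. -/

set_option autoImplicit false
set_option linter.unusedVariables false

namespace H7.AbSn
open Equiv MulAction H6

variable {α : Type*} [Fintype α] [DecidableEq α]

theorem step (A : Subgroup (Perm α)) (hc : ∀ a ∈ A, ∀ b ∈ A, a * b = b * a) (s : Finset α)
    (hs : ∀ g ∈ A, ∀ y ∉ s, g y = y) {x : α} (hx : x ∈ s) :
    ∃ s' : Finset α, 1 ≤ (orb A x).ncard ∧ s'.card + (orb A x).ncard = s.card ∧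
      Nat.card A = (orb A x).ncard * Nat.card ↥(A ⊓ stabilizer (Perm α) x) ∧
      ∀ g ∈ A ⊓ stabilizer (Perm α) x, ∀ y ∉ s', g y = y := by
  classical
  have h1 : (orb A x).toFinset ⊆ s := fun y hy => by
    obtain ⟨g, hg, rfl⟩ := Set.mem_toFinset.1 hy
    by_contra h
    have := hs g⁻¹ (inv_mem hg) _ h
    simp only [Perm.smul_def, Perm.coe_inv, symm_apply_apply] at this h
    exact h (this ▸ hx)
  refine ⟨s \ (orb A x).toFinset, (Set.ncard_pos (Set.toFinite _)).2 ⟨x, 1, one_mem _, rfl⟩, ?_, card_orb A x, ?_⟩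
  · rw [Set.ncard_eq_toFinset_card', Finset.card_sdiff_add_card_eq_card h1]
  · intro g hg y hy
    by_cases h : y ∈ s
    · obtain ⟨k, hk, rfl⟩ : y ∈ orb A x := by simpa [h] using hy
      have h2 : g x = x := hg.2
      show (g * k) x = k x
      rw [hc g hg.1 k hk, Perm.mul_apply, h2]
    · exact hs g hg.1 y h

theorem triv (A : Subgroup (Perm α)) (hs : ∀ g ∈ A, ∀ y ∉ (∅ : Finset α), g y = y) : Nat.card A = 1 :=
  Subgroup.card_eq_one.2 (eq_bot_iff.2 fun g hg => Equiv.ext fun y => hs g hg y (by simp))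

def f : ℕ → ℕ
  | 0 => 1 | 1 => 1 | 2 => 2 | 3 => 3 | 4 => 4
  | n + 5 => 3 * f (n + 2)

def g : ℕ → ℕ
  | 0 => 1 | 1 => 1 | 2 => 1 | 3 => 3 | 4 => 4 | 5 => 5 | 6 => 9 | 7 => 12 | 8 => 16
  | n + 9 => 3 * g (n + 6)

theorem f_base : ∀ k, f k ≤ f (k + 1) ∧ 2 * f k ≤ f (k + 2) ∧ 3 * f k ≤ f (k + 3)
  | 0 => by decide | 1 => by decide | 2 => by decide | 3 => by decide | 4 => by decide
  | k + 5 => by
    have : f (k + 2) ≤ f (k + 3) ∧ 2 * f (k + 2) ≤ f (k + 4) ∧ 3 * f (k + 2) ≤ f (k + 5) := f_base (k + 2)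
    show 3 * f (k + 2) ≤ 3 * f (k + 3) ∧ 2 * (3 * f (k + 2)) ≤ 3 * f (k + 4) ∧ 3 * (3 * f (k + 2)) ≤ 3 * f (k + 5)
    omega

theorem f_mul : ∀ m k, 1 ≤ m → m * f k ≤ f (k + m)
  | 0 => fun _ h => by omega
  | 1 => fun k _ => by simpa using (f_base k).1
  | 2 => fun k _ => (f_base k).2.1
  | 3 => fun k _ => (f_base k).2.2
  | 4 => fun k _ => by
    have := (f_base k).2.1
    have : 2 * f (k + 2) ≤ f (k + 4) := (f_base (k + 2)).2.1
    omega
  | m + 5 => fun k _ => by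
    have h1 := f_mul (m + 2) k (by omega)
    have h2 := (f_base (k + (m + 2))).2.2
    rw [show k + (m + 2) + 3 = k + (m + 5) by ring] at h2
    nlinarith [Nat.zero_le (m * f k), Nat.zero_le (f k)]

theorem g_base : ∀ k, 3 * g k ≤ g (k + 3) ∧ 4 * g k ≤ g (k + 4) ∧ 5 * g k ≤ g (k + 5)
  | 0 => by decide | 1 => by decide | 2 => by decide | 3 => by decide | 4 => by decide
  | 5 => by decide | 6 => by decide | 7 => by decide | 8 => by decide
  | k + 9 => by
    have := g_base (k + 6)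
    simp only [g] at *
    omega

theorem g_mul : ∀ m k, 3 ≤ m → m * g k ≤ g (k + m)
  | 0 => fun _ h => by omega
  | 1 => fun _ h => by omega
  | 2 => fun _ h => by omega
  | 3 => fun k _ => (g_base k).1
  | 4 => fun k _ => (g_base k).2.1
  | 5 => fun k _ => (g_base k).2.2
  | m + 6 => fun k _ => by
    have h1 := g_mul (m + 3) k (by omega)
    have h2 := (g_base (k + (m + 3))).1
    rw [show k + (m + 3) + 3 = k + (m + 6) by ring] at h2
    nlinarith [Nat.zero_le (m * g k), Nat.zero_le (g k)]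

theorem two_le_g : ∀ k, k ≠ 2 → 2 ^ (k / 2) ≤ g k
  | 0 => by decide | 1 => by decide | 2 => by decide | 3 => by decide | 4 => by decide
  | 5 => by decide | 6 => by decide
  | k + 7 => fun _ => by
    have h1 := two_le_g (k + 3) (by omega)
    have h2 : 4 * g (k + 3) ≤ g (k + 7) := (g_base (k + 3)).2.1
    rw [show (k + 7) / 2 = (k + 3) / 2 + 2 by omega, pow_add]
    omega

theorem bndF (n : ℕ) : ∀ (A : Subgroup (Perm α)) (hc : ∀ a ∈ A, ∀ b ∈ A, a * b = b * a) (s : Finset α)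
    (hs : ∀ g ∈ A, ∀ y ∉ s, g y = y), s.card = n → Nat.card A ≤ f n := by
  induction n using Nat.strong_induction_on with
  | _ n ih =>
    intro A hc s hs hn
    rcases s.eq_empty_or_nonempty with rfl | ⟨x, hx⟩
    · rw [triv A hs, ← hn]; rfl
    obtain ⟨s', h1, h2, h3, h4⟩ := step A hc s hs hx
    have := ih s'.card (by omega) (A ⊓ stabilizer (Perm α) x) (fun a ha b hb => hc a ha.1 b hb.1) s' h4 rfl
    rw [h3, ← hn, ← h2]
    exact (Nat.mul_le_mul_left _ this).trans (f_mul _ _ h1)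

theorem bnd2 (n : ℕ) : ∀ (A : Subgroup (Perm α)) (hc : ∀ a ∈ A, ∀ b ∈ A, a * b = b * a) (s : Finset α)
    (hs : ∀ g ∈ A, ∀ y ∉ s, g y = y), (∀ x : α, (orb A x).ncard ≤ 2) → s.card = n → Nat.card A ≤ 2 ^ (n / 2) := by
  induction n using Nat.strong_induction_on with
  | _ n ih =>
    intro A hc s hs ho hn
    rcases s.eq_empty_or_nonempty with rfl | ⟨x, hx⟩
    · rw [triv A hs]; exact Nat.one_le_two_pow
    obtain ⟨s', h1, h2, h3, h4⟩ := step A hc s hs hx
    have := ih s'.card (by omega) (A ⊓ stabilizer (Perm α) x) (fun a ha b hb => hc a ha.1 b hb.1) s' h4 (fun y =>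
      (Set.ncard_le_ncard (t := orb A y) (by rintro _ ⟨k, hk, e⟩; exact ⟨k, hk.1, e⟩) (Set.toFinite _)).trans (ho y)) rfl
    have h5 := ho x
    rw [h3, ← hn, ← h2]
    refine (Nat.mul_le_mul_left _ this).trans ?_
    generalize (orb A x).ncard = m at *
    interval_cases m
    · rw [one_mul]; exact Nat.pow_le_pow_right (by norm_num) (by omega)
    · rw [show (s'.card + 2) / 2 = s'.card / 2 + 1 by omega, pow_succ']

theorem bndG (n : ℕ) : ∀ (A : Subgroup (Perm α)) (hc : ∀ a ∈ A, ∀ b ∈ A, a * b = b * a) (s : Finset α)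
    (hs : ∀ g ∈ A, ∀ y ∉ s, g y = y), A ≤ alternatingGroup α → s.card = n → Nat.card A ≤ g n := by
  induction n using Nat.strong_induction_on with
  | _ n ih =>
    intro A hc s hs he hn
    by_cases ho : ∀ x : α, (orb A x).ncard ≤ 2
    · by_cases h2 : n = 2
      · subst h2
        refine (Subgroup.card_eq_one.2 (eq_bot_iff.2 fun a ha => ?_)).le
        have h3 : a.support.card ≤ 2 := hn ▸ Finset.card_le_card fun y hy => by
          by_contra h; exact Perm.mem_support.1 hy (hs a ha y h)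
        by_contra h4
        have h5 := Perm.two_le_card_support_of_ne_one h4
        have h6 := (Perm.card_support_eq_two.1 (le_antisymm h3 h5)).sign_eq
        have h7 : a.sign = 1 := he ha
        rw [h7] at h6
        exact absurd h6 (by decide)
      · exact (bnd2 n A hc s hs ho hn).trans (two_le_g n h2)
    push Not at ho
    obtain ⟨x, ho⟩ := ho
    have hx : x ∈ s := by
      by_contra h
      have : orb A x ⊆ {x} := by rintro _ ⟨k, hk, rfl⟩; exact hs k hk x h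
      have := Set.ncard_le_ncard this (Set.toFinite _)
      rw [Set.ncard_singleton] at this
      omega
    obtain ⟨s', h1, h2, h3, h4⟩ := step A hc s hs hx
    have := ih s'.card (by omega) (A ⊓ stabilizer (Perm α) x) (fun a ha b hb => hc a ha.1 b hb.1) s' h4 (inf_le_left.trans he) rfl
    rw [h3, ← hn, ← h2]
    exact (Nat.mul_le_mul_left _ this).trans (g_mul _ _ ho)

theorem f_val (k : ℕ) : f (3 * (k + 1)) = 3 ^ (k + 1) ∧ f (3 * (k + 1) + 1) = 4 * 3 ^ k ∧ f (3 * (k + 1) + 2) = 2 * 3 ^ (k + 1) := by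
  induction k with
  | zero => decide
  | succ k ih =>
    refine ⟨?_, ?_, ?_⟩
    · rw [show 3 * (k + 1 + 1) = (3 * k + 1) + 5 by ring, f, show 3 * k + 1 + 2 = 3 * (k + 1) by ring, ih.1]; ring
    · rw [show 3 * (k + 1 + 1) + 1 = (3 * k + 2) + 5 by ring, f, show 3 * k + 2 + 2 = 3 * (k + 1) + 1 by ring, ih.2.1]; ring
    · rw [show 3 * (k + 1 + 1) + 2 = (3 * k + 3) + 5 by ring, f, show 3 * k + 3 + 2 = 3 * (k + 1) + 2 by ring, ih.2.2]; ring

theorem g_val (k : ℕ) : g (3 * (k + 2)) = 3 ^ (k + 2) ∧ g (3 * (k + 2) + 1) = 4 * 3 ^ (k + 1) ∧ g (3 * (k + 2) + 2) = 16 * 3 ^ k := by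
  induction k with
  | zero => decide
  | succ k ih =>
    refine ⟨?_, ?_, ?_⟩
    · rw [show 3 * (k + 1 + 2) = (3 * k) + 9 by ring, g, show 3 * k + 6 = 3 * (k + 2) by ring, ih.1]; ring
    · rw [show 3 * (k + 1 + 2) + 1 = (3 * k + 1) + 9 by ring, g, show 3 * k + 1 + 6 = 3 * (k + 2) + 1 by ring, ih.2.1]; ring
    · rw [show 3 * (k + 1 + 2) + 2 = (3 * k + 2) + 9 by ring, g, show 3 * k + 2 + 6 = 3 * (k + 2) + 2 by ring, ih.2.2]; ring

/-- an abelian subgroup of order `c` of degree `n`, even when `e` holds -/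
def E (e : Prop) (n c : ℕ) : Prop :=
  ∃ A : Subgroup (Perm (Fin n)), (∀ a ∈ A, ∀ b ∈ A, a * b = b * a) ∧ Nat.card A = c ∧ (e → A ≤ alternatingGroup (Fin n))

theorem E.mul {e : Prop} {n c m d : ℕ} (h : E e n c) (h' : E e m d) : E e (n + m) (c * d) := by
  obtain ⟨A, a1, a2, a3⟩ := h
  obtain ⟨B, b1, b2, b3⟩ := h'
  let φ := (finSumFinEquiv (m := n) (n := m)).permCongrHom.toMonoidHom.comp (Perm.sumCongrHom (Fin n) (Fin m))
  have hφ : Function.Injective φ := fun x y h =>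
    Perm.sumCongrHom_injective ((finSumFinEquiv (m := n) (n := m)).permCongrHom.injective h)
  refine ⟨(A.prod B).map φ, ?_, ?_, fun he => ?_⟩
  · rintro _ ⟨x, hx, rfl⟩ _ ⟨y, hy, rfl⟩
    rw [← map_mul, ← map_mul]
    congr 1
    exact Prod.ext (a1 _ hx.1 _ hy.1) (b1 _ hx.2 _ hy.2)
  · rw [Subgroup.card_map_of_injective hφ, Nat.card_congr (A.prodEquiv B).toEquiv, Nat.card_prod, a2, b2]
  · rintro _ ⟨x, hx, rfl⟩
    have h1 : x.1.sign = 1 := a3 he hx.1
    have h2 : x.2.sign = 1 := b3 he hx.2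
    show Perm.sign (finSumFinEquiv.permCongr (Perm.sumCongr x.1 x.2)) = 1
    rw [Perm.sign_permCongr, Perm.sign_sumCongr, h1, h2, mul_one]

theorem E_zp {e : Prop} {n c : ℕ} (x : Perm (Fin n)) (h : orderOf x = c) (he : e → x.sign = 1) : E e n c :=
  ⟨Subgroup.zpowers x, by rintro _ ⟨i, rfl⟩ _ ⟨j, rfl⟩; exact (Commute.zpow_zpow_self x i j).eq,
    by rw [Nat.card_zpowers, h], fun h => Subgroup.zpowers_le.2 (he h)⟩

theorem E0 {e : Prop} : E e 0 1 := E_zp 1 orderOf_one fun _ => map_one _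

theorem E3 {e : Prop} : E e 3 3 :=
  haveI : Fact (Nat.Prime 3) := ⟨by norm_num⟩
  E_zp (finRotate 3) (orderOf_eq_prime (by decide) (by decide)) fun _ => by decide

theorem E2 : E False 2 2 := E_zp (swap 0 1) (orderOf_eq_prime (by decide) (by decide)) False.elim

theorem E4 {e : Prop} : E e 4 4 := by
  let V : Subgroup (Perm (Fin 4)) :=
    { carrier := {x | x * x = 1 ∧ x.sign = 1}
      one_mem' := by decide
      mul_mem' := fun {a b} => by revert a b; decide +kernel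
      inv_mem' := fun {a} => by revert a; decide +kernel }
  refine ⟨V, fun a ha b hb => ?_, ?_, fun _ a ha => ha.2⟩
  · have : ∀ a b : Perm (Fin 4), a * a = 1 ∧ a.sign = 1 → b * b = 1 ∧ b.sign = 1 → a * b = b * a := by decide +kernel
    exact this a b ha hb
  · show Nat.card {x : Perm (Fin 4) // x * x = 1 ∧ x.sign = 1} = 4
    rw [Nat.card_eq_fintype_card]; decide +kernel

theorem E3k {e : Prop} (k : ℕ) : E e (3 * k) (3 ^ k) := by
  induction k with
  | zero => exact E0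
  | succ k ih => exact ih.mul E3

theorem greatS {n c : ℕ} (h : E False n c) (hc : f n = c) :
    IsGreatest {c : ℕ | ∃ A : Subgroup (Perm (Fin n)), IsMulCommutative A ∧ Nat.card A = c} c := by
  obtain ⟨A, a1, a2, -⟩ := h
  refine ⟨⟨A, ⟨⟨fun a b => Subtype.ext (a1 _ a.2 _ b.2)⟩⟩, a2⟩, ?_⟩
  rintro _ ⟨B, hB, rfl⟩
  exact hc ▸ bndF n B (fun a ha b hb => congrArg Subtype.val (hB.1.1 ⟨a, ha⟩ ⟨b, hb⟩)) Finset.univ (by simp) (by simp)

theorem greatA {n c : ℕ} (h : E True n c) (hc : g n = c) :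
    IsGreatest {c : ℕ | ∃ A : Subgroup (alternatingGroup (Fin n)), IsMulCommutative A ∧ Nat.card A = c} c := by
  obtain ⟨A, a1, a2, a3⟩ := h
  refine ⟨⟨A.subgroupOf _, ⟨⟨fun a b => Subtype.ext (Subtype.ext (a1 _ a.2 _ b.2))⟩⟩,
    (Nat.card_congr (Subgroup.subgroupOfEquivOfLe (a3 trivial)).toEquiv).trans a2⟩, ?_⟩
  rintro _ ⟨B, hB, rfl⟩
  rw [← Subgroup.card_map_of_injective (alternatingGroup (Fin n)).subtype_injective]
  refine hc ▸ bndG n _ ?_ Finset.univ (by simp) (Subgroup.map_subtype_le _) (by simp)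
  rintro _ ⟨a, ha, rfl⟩ _ ⟨b, hb, rfl⟩
  exact congrArg (fun x : B => x.1.1) (hB.1.1 ⟨a, ha⟩ ⟨b, hb⟩)

theorem E.cast {e : Prop} {n c m d : ℕ} (h : E e n c) (h1 : n = m) (h2 : c = d) : E e m d := h1 ▸ h2 ▸ h

end H7.AbSn
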