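import Cfsg.Agent.H3.Perm
import Cfsg.Prelude.Def_Perm
import Mathlib.GroupTheory.FiniteAbelian.Duality
import Mathlib.RingTheory.RootsOfUnity.AlgebraicallyClosed
import Mathlib.Analysis.Complex.Polynomial.Basic

/-! Decomposition of a permutation character under a commuting free abelian action. -/

set_option autoImplicit false
open Cfsg
open scoped ComplexConjugate

namespace H7PermDec
open H3

noncomputable section
open Classical

theorem tr {X : Type*} [Fintype X] (φ : X → X) :
    LinearMap.trace ℂ (X → ℂ) (LinearMap.funLeft ℂ ℂ φ) = ∑ x, if φ x = x then 1 else 0 := by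
  rw [LinearMap.trace_eq_matrix_trace ℂ (Pi.basisFun ℂ X)]
  simp [Matrix.trace, LinearMap.toMatrix_apply, Pi.single_apply, LinearMap.funLeft_apply]

theorem cnt1 {G Z : Type*} [Group G] [Fintype G] [MulAction G Z] [DecidableEq Z] (S : Finset Z) (hne : S.Nonempty)
    (hinv : ∀ (g : G), ∀ z ∈ S, g • z ∈ S) (htr : ∀ z ∈ S, ∀ w ∈ S, ∃ g : G, g • z = w)
    (φ : Z → Z) (hφ : ∀ z ∈ S, φ z ∈ S) :
    ∑ z ∈ S, ∑ g : G, (if g • z = φ z then (1 : ℂ) else 0) = Fintype.card G := by
  have h1 : ∀ z, ∀ w ∈ S, ∀ w' ∈ S, ∑ g : G, (if g • z = w then (1 : ℂ) else 0) =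
      ∑ g : G, (if g • z = w' then (1 : ℂ) else 0) := by
    intro z w hw w' hw'
    obtain ⟨h, rfl⟩ := htr w hw w' hw'
    rw [← Equiv.sum_comp (Equiv.mulLeft h) (fun g => if g • z = h • w then (1 : ℂ) else 0)]
    simp [mul_smul]
  have h2 : ∀ z ∈ S, (S.card : ℂ) * ∑ g : G, (if g • z = φ z then (1 : ℂ) else 0) =
      Fintype.card G := by
    intro z hz
    rw [← nsmul_eq_mul, ← Finset.sum_const,
      Finset.sum_congr rfl fun w hw => h1 z _ (hφ z hz) w hw, Finset.sum_comm]
    simp [hinv _ z hz]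
  have h3 : (S.card : ℂ) ≠ 0 := by exact_mod_cast hne.card_pos.ne'
  apply mul_left_cancel₀ h3
  rw [Finset.mul_sum, Finset.sum_congr rfl h2]
  simp

variable {G C X : Type*} [Group G] [Fintype G] [CommGroup C] [Fintype C] [Fintype X]
  [MulAction G X] [MulAction C X] [SMulCommClass G C X]

/-- number of solutions of `g x = c x` -/
def NN (X : Type*) [Fintype X] [MulAction G X] [MulAction C X] (g : G) (c : C) : ℂ :=
  ∑ x : X, if g • x = c • x then 1 else 0

/-- the `α`-component -/
def pp (X : Type*) [Fintype X] [MulAction G X] [MulAction C X] (α : C →* ℂˣ) (g : G) : ℂ :=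
  (Fintype.card C : ℂ)⁻¹ * ∑ c, (α c : ℂ) * NN X g c

theorem pp_char (α : C →* ℂˣ) : IsCharacter G (pp X α) := by
  have hC : (Fintype.card C : ℂ) ≠ 0 := by exact_mod_cast Fintype.card_ne_zero
  let P : (X → ℂ) →ₗ[ℂ] (X → ℂ) :=
    (Fintype.card C : ℂ)⁻¹ • ∑ c : C, (α c : ℂ) • LinearMap.funLeft ℂ ℂ (fun x : X => c • x)
  have hPa : ∀ f x, P f x = (Fintype.card C : ℂ)⁻¹ * ∑ c : C, (α c : ℂ) * f (c • x) := by
    intro f x
    simp [P, LinearMap.sum_apply, LinearMap.funLeft_apply]
  have hP : P ∘ₗ P = P := by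
    refine LinearMap.ext fun f => funext fun x => ?_
    rw [LinearMap.comp_apply, hPa]
    have : ∀ c : C, (α c : ℂ) * P f (c • x) = P f x := by
      intro c
      rw [hPa, hPa, mul_left_comm, Finset.mul_sum,
        ← Equiv.sum_comp (Equiv.mulRight c) (fun d => (α d : ℂ) * f (d • x))]
      congr 1
      refine Finset.sum_congr rfl fun d _ => ?_
      simp [mul_smul]
      ring
    simp [this, hC]
  have hc : ∀ g, P ∘ₗ permRep ℂ G X g = permRep ℂ G X g ∘ₗ P := by
    intro g
    refine LinearMap.ext fun f => funext fun x => ?_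
    show P (permRep ℂ G X g f) x = P f (g⁻¹ • x)
    rw [hPa, hPa]
    congr 1
    refine Finset.sum_congr rfl fun d _ => ?_
    show _ * f (g⁻¹ • d • x) = _
    rw [smul_comm]
  convert isCharacter_trace_mul_proj (permRep ℂ G X) P hP hc using 1
  funext g
  have : permRep ℂ G X g ∘ₗ P = (Fintype.card C : ℂ)⁻¹ • ∑ c : C, (α c : ℂ) •
      LinearMap.funLeft ℂ ℂ (fun x : X => c • g⁻¹ • x) := by
    refine LinearMap.ext fun f => funext fun x => ?_
    show P f (g⁻¹ • x) = _
    rw [hPa]
    simp [LinearMap.sum_apply, LinearMap.funLeft_apply]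
  rw [this, map_smul, map_sum, pp, smul_eq_mul]
  congr 1
  refine Finset.sum_congr rfl fun c _ => ?_
  rw [map_smul, tr, smul_eq_mul, NN]
  congr 1
  refine Finset.sum_congr rfl fun x _ => ?_
  congr 1
  rw [← smul_comm, inv_smul_eq_iff]
  exact propext eq_comm

theorem conj_NN (g : G) (c : C) : conj (NN X g c) = NN X g c := by
  simp [NN, apply_ite conj]

theorem sum_NN [Nonempty X] (h1 : ∀ x y : X, ∃ g : G, g • x = y) (c : C) :
    ∑ g : G, NN X g c = Fintype.card G := by
  unfold NN
  rw [Finset.sum_comm]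
  exact cnt1 Finset.univ Finset.univ_nonempty (by simp) (fun z _ w _ => h1 z w) _ (by simp)

theorem sum_NN_NN [Nonempty X] (h1 : ∀ x y : X, ∃ g : G, g • x = y)
    (hfree : ∀ (c d : C) (x : X), c • x = d • x → c = d)
    (hne : ∃ x y : X, ∀ e : C, y ≠ e • x)
    (h2 : ∀ x y x' y' : X, (∀ e : C, y ≠ e • x) → (∀ e : C, y' ≠ e • x') →
      ∃ g : G, g • x = x' ∧ g • y = y') (c d : C) :
    ∑ g : G, NN X g c * NN X g d =
      Fintype.card G * ((if c = d then Fintype.card C else 0) + 1) := by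
  have e1 : ∑ g : G, NN X g c * NN X g d =
      ∑ z : X × X, ∑ g : G, if g • z = (c • z.1, d • z.2) then (1 : ℂ) else 0 := by
    rw [Finset.sum_comm]
    refine Finset.sum_congr rfl fun g _ => ?_
    rw [NN, NN, Finset.sum_mul_sum, Fintype.sum_prod_type]
    refine Finset.sum_congr rfl fun x _ => Finset.sum_congr rfl fun y _ => ?_
    by_cases a1 : g • x = c • x <;> by_cases a2 : g • y = d • y <;> simp [Prod.ext_iff, a1, a2]
  rw [e1, ← Finset.sum_filter_add_sum_filter_not Finset.univ (fun z : X × X => ∀ e : C, z.2 ≠ e • z.1),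
    cnt1 (G := G) _ _ _ _ (fun z : X × X => (c • z.1, d • z.2))]
  · have e2 : Finset.univ.filter (fun z : X × X => ¬ ∀ e : C, z.2 ≠ e • z.1) =
        Finset.univ.image (fun z : C × X => (z.2, z.1 • z.2)) := by
      ext ⟨x, y⟩
      simp only [ne_eq, not_forall, not_not, Finset.mem_filter, Finset.mem_univ, true_and,
        Finset.mem_image, Prod.mk.injEq, Prod.exists]
      exact ⟨fun ⟨e, he⟩ => ⟨e, x, rfl, he.symm⟩, fun ⟨e, _, h, he⟩ => ⟨e, h ▸ he.symm⟩⟩
    rw [e2, Finset.sum_image, Fintype.sum_prod_type]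
    · have e3 : ∀ (e : C) (x : X) (g : G), (g • (x, e • x) = (c • x, d • e • x)) ↔
          (c = d ∧ g • x = c • x) := by
        intro e x g
        rw [Prod.smul_mk, Prod.mk.injEq, smul_comm g e x, smul_comm d e x, smul_left_cancel_iff]
        exact ⟨fun h => ⟨hfree c d x (h.1.symm.trans h.2), h.1⟩, fun h => ⟨h.2, h.1 ▸ h.2⟩⟩
      simp only [e3]
      have e4 := sum_NN (X := X) h1 c
      unfold NN at e4
      rw [Finset.sum_comm] at e4
      split_ifs with h
      · simp only [h, true_and] at e4 ⊢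
        simp only [e4]
        simp
        ring
      · simp [h]
    · rintro ⟨e, x⟩ - ⟨e', x'⟩ - h
      simp only [Prod.mk.injEq] at h ⊢
      obtain ⟨rfl, h⟩ := h
      exact ⟨hfree _ _ _ h, rfl⟩
  · intro z hz
    simp only [Finset.mem_filter, Finset.mem_univ, true_and] at hz ⊢
    intro e he
    apply hz (d⁻¹ * e * c)
    rw [mul_smul, mul_smul, ← he, inv_smul_smul]
  · obtain ⟨x, y, h⟩ := hne
    exact ⟨(x, y), by simpa using h⟩
  · intro g z hz
    simp only [Finset.mem_filter, Finset.mem_univ, true_and] at hz ⊢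
    intro e he
    apply hz e
    rw [Prod.smul_snd, Prod.smul_fst, ← smul_comm] at he
    exact smul_left_cancel g he
  · intro z hz w hw
    simp only [Finset.mem_filter, Finset.mem_univ, true_and] at hz hw
    obtain ⟨g, e1, e2⟩ := h2 _ _ _ _ hz hw
    exact ⟨g, Prod.ext e1 e2⟩

theorem main [Nonempty X] (h1 : ∀ x y : X, ∃ g : G, g • x = y)
    (hfree : ∀ (c d : C) (x : X), c • x = d • x → c = d)
    (hne : ∃ x y : X, ∀ e : C, y ≠ e • x)
    (h2 : ∀ x y x' y' : X, (∀ e : C, y ≠ e • x) → (∀ e : C, y' ≠ e • x') →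
      ∃ g : G, g • x = x' ∧ g • y = y') :
    ∃ χ : Fin (Fintype.card C) → G → ℂ, (∀ i, IsIrrCharacter G (χ i)) ∧ Function.Injective χ ∧
      ∀ g : G, (Nat.card {x : X // g • x = x} : ℂ) = 1 + ∑ i, χ i g := by
  have hC : (Fintype.card C : ℂ) ≠ 0 := by exact_mod_cast Fintype.card_ne_zero
  have hG : (Fintype.card G : ℂ) ≠ 0 := by exact_mod_cast Fintype.card_ne_zero
  have : NeZero (Monoid.exponent C) := ⟨Monoid.exponent_ne_zero_of_finite⟩
  have : NeZero ((Monoid.exponent C : ℕ) : ℂ) := ⟨by exact_mod_cast NeZero.ne _⟩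
  have hcard : Nat.card (C →* ℂˣ) = Fintype.card C := by
    rw [CommGroup.card_monoidHom_of_hasEnoughRootsOfUnity, Nat.card_eq_fintype_card]
  have : Finite (C →* ℂˣ) := Nat.finite_of_card_ne_zero (by rw [hcard]; exact Fintype.card_ne_zero)
  have := Fintype.ofFinite (C →* ℂˣ)
  have o1 : ∀ α β : C →* ℂˣ, ∑ c, (α c : ℂ) * conj (β c : ℂ) =
      Fintype.card C * if α = β then 1 else 0 := by
    intro α β
    have := inner_lin α β
    rw [classInner, Nat.card_eq_fintype_card] at this
    rw [← this, mul_inv_cancel_left₀ hC]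
  have o2 : ∀ α : C →* ℂˣ, ∑ c, (α c : ℂ) = Fintype.card C * if α = 1 then 1 else 0 := by
    intro α
    simpa using o1 α 1
  have o3 : ∀ α : C →* ℂˣ, ∑ c, conj (α c : ℂ) = Fintype.card C * if α = 1 then 1 else 0 := by
    intro α
    simpa [eq_comm] using o1 1 α
  have i1 : ∀ α : C →* ℂˣ, classInner (pp (G := G) X α) (fun _ => 1) = if α = 1 then 1 else 0 := by
    intro α
    simp only [classInner, pp, map_one, mul_one, ← Finset.mul_sum, Nat.card_eq_fintype_card]
    rw [Finset.sum_comm]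
    simp only [← Finset.mul_sum, sum_NN h1, ← Finset.sum_mul, o2]
    field_simp
  have i1' : ∀ α : C →* ℂˣ, classInner (fun _ => 1) (pp (G := G) X α) = if α = 1 then 1 else 0 := by
    intro α
    rw [isGen_one.inner_comm (pp_char α).isGen, i1]
  have i2 : ∀ α β : C →* ℂˣ, classInner (pp (G := G) X α) (pp X β) =
      (if α = β then 1 else 0) + (if α = 1 then 1 else 0) * (if β = 1 then 1 else 0) := by
    intro α β
    have : ∀ g : G, pp X α g * conj (pp X β g) = (Fintype.card C : ℂ)⁻¹ * (Fintype.card C : ℂ)⁻¹ *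
        ∑ c, ∑ d, (α c : ℂ) * conj (β d : ℂ) * (NN X g c * NN X g d) := by
      intro g
      simp only [pp, map_mul, map_sum, conj_NN, map_inv₀, map_natCast]
      rw [mul_mul_mul_comm, Finset.sum_mul_sum]
      simp only [mul_mul_mul_comm]
    simp only [classInner, this, ← Finset.mul_sum, Nat.card_eq_fintype_card]
    rw [Finset.sum_comm]
    have e : ∀ c : C, ∑ g : G, ∑ d, (α c : ℂ) * conj (β d : ℂ) * (NN X g c * NN X g d) =
        Fintype.card G * (Fintype.card C * ((α c : ℂ) * conj (β c : ℂ)) +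
          (α c : ℂ) * ∑ d, conj (β d : ℂ)) := by
      intro c
      rw [Finset.sum_comm]
      simp only [← Finset.mul_sum, sum_NN_NN h1 hfree hne h2]
      simp only [Finset.mul_sum, mul_add, Finset.sum_add_distrib, mul_ite, mul_zero,
        Finset.sum_ite_eq, Finset.mem_univ, if_true, Nat.cast_ite, Nat.cast_zero]
      congr 1
      · ring
      · exact Finset.sum_congr rfl fun d _ => by ring
    simp only [e, ← Finset.mul_sum, Finset.sum_add_distrib, ← Finset.sum_mul, o1, o2, o3]
    field_simp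
  let χ : (C →* ℂˣ) → G → ℂ := fun α => if α = 1 then pp X α - fun _ => 1 else pp X α
  have one1 : classInner (fun _ : G => (1 : ℂ)) (fun _ => 1) = 1 := isIrrCharacter_one.inner_self
  have i3 : ∀ α β, classInner (χ α) (χ β) = if α = β then 1 else 0 := by
    intro α β
    by_cases ha : α = 1 <;> by_cases hb : β = 1 <;>
      simp [χ, ha, hb, H3.inner_sub_left, H3.inner_sub_right, i1, i1', i2, one1]
  have hch : ∀ α, IsCharacter G (χ α) := by
    intro α
    by_cases ha : α = 1
    · simp only [χ, if_pos ha]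
      exact (pp_char α).sub_of_inner_ne_zero isIrrCharacter_one (by simp [i1, ha])
    · simp only [χ, if_neg ha]
      exact pp_char α
  let e : (C →* ℂˣ) ≃ Fin (Fintype.card C) := (Finite.equivFin _).trans (finCongr hcard)
  refine ⟨fun i => χ (e.symm i), fun i => (hch _).isIrr_of_inner_self (by simp [i3]), ?_, ?_⟩
  · intro i j hij
    have h := i3 (e.symm i) (e.symm j)
    have hij' : χ (e.symm i) = χ (e.symm j) := hij
    rw [hij', i3] at h
    by_contra hne
    simp [hne] at h
  · intro g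
    rw [Equiv.sum_comp e.symm (fun α => χ α g)]
    have s1 : ∑ α, χ α g = ∑ α : C →* ℂˣ, pp X α g - 1 := by
      have : ∀ α, χ α g = pp X α g - if α = 1 then 1 else 0 := by
        intro α
        by_cases ha : α = 1 <;> simp [χ, ha]
      simp [this]
    have s2 : ∀ c : C, ∑ α : C →* ℂˣ, (α c : ℂ) = if c = 1 then (Fintype.card C : ℂ) else 0 := by
      intro c
      split_ifs with h
      · simp [h, ← hcard]
      · obtain ⟨φ, hφ⟩ := CommGroup.exists_apply_ne_one_of_hasEnoughRootsOfUnity C ℂ h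
        refine eq_zero_of_mul_eq_self_left (b := (φ c : ℂ)) (by simpa using hφ) ?_
        rw [Finset.mul_sum, ← Equiv.sum_comp (Equiv.mulLeft φ) (fun α : C →* ℂˣ => (α c : ℂ))]
        simp
    rw [s1]
    simp only [pp, ← Finset.mul_sum]
    rw [Finset.sum_comm]
    simp only [← Finset.sum_mul, s2]
    simp [hC, NN, Fintype.card_subtype]

end
end H7PermDec
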